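import Mathlib
import Cfsg.Agent.Lib.Helper9.S4033.Defs

/-!
# S4033, package [TA]

Constant centralizer index on the noncentral `p`-regular elements and two primes `≠ p` with
noncentral elements of prime power order: the `p`-regular elements of `C(u)` are central in `C(u)`.
-/

set_option autoImplicit false

namespace Cfsg.Agent.Lib.Helper1.S4033

open Cfsg.Agent.Lib.Helper9.S4033

universe u

section

variable {G : Type u} [Group G]

theorem mem_cent {x g : G} : g ∈ Subgroup.centralizer ({x} : Set G) ↔ x * g = g * x := by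
  rw [Subgroup.mem_centralizer_iff]
  constructor
  · intro h
    exact h x rfl
  · intro h y hy
    rw [Set.mem_singleton_iff] at hy
    rw [hy]
    exact h

theorem cent_le_of_pow (x : G) (k : ℕ) :
    Subgroup.centralizer ({x} : Set G) ≤ Subgroup.centralizer ({x ^ k} : Set G) := by
  intro g hg
  rw [mem_cent] at hg ⊢
  exact (Commute.pow_left (show Commute x g from hg) k).eq

variable [Finite G]

theorem card_cent_eq (m : ℕ) (a b : G)
    (ha : (Subgroup.centralizer ({a} : Set G)).index = m)
    (hb : (Subgroup.centralizer ({b} : Set G)).index = m) :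
    Nat.card (Subgroup.centralizer ({a} : Set G)) =
      Nat.card (Subgroup.centralizer ({b} : Set G)) := by
  have h1 := Subgroup.card_mul_index (Subgroup.centralizer ({a} : Set G))
  have h2 := Subgroup.card_mul_index (Subgroup.centralizer ({b} : Set G))
  rw [ha] at h1
  rw [hb] at h2
  have hm : m ≠ 0 := by
    rw [← ha]
    exact Subgroup.index_ne_zero_of_finite
  exact Nat.eq_of_mul_eq_mul_right (Nat.pos_of_ne_zero hm) (h1.trans h2.symm)

/-- (L) commuting `p`-regular elements of coprime orders -/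
theorem lemL (p m : ℕ)
    (hidx : ∀ x : G, (orderOf x).Coprime p → x ∉ Subgroup.center G →
      (Subgroup.centralizer ({x} : Set G)).index = m)
    (x y : G) (hxp : (orderOf x).Coprime p) (hxc : x ∉ Subgroup.center G)
    (hyp : (orderOf y).Coprime p) (hxy : x * y = y * x)
    (hco : (orderOf x).Coprime (orderOf y)) :
    Subgroup.centralizer ({x} : Set G) ≤ Subgroup.centralizer ({y} : Set G) := by
  have hcomm : Commute x y := hxy
  have hord : orderOf (x * y) = orderOf x * orderOf y :=
    hcomm.orderOf_mul_eq_mul_orderOf_of_coprime hco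
  obtain ⟨b, hb⟩ := exists_pow_eq_self_of_coprime (x := x) (n := orderOf y) hco.symm
  have hxpow : (x * y) ^ (orderOf y * b) = x := by
    rw [pow_mul, hcomm.mul_pow, pow_orderOf_eq_one, mul_one, hb]
  obtain ⟨b', hb'⟩ := exists_pow_eq_self_of_coprime (x := y) (n := orderOf x) hco
  have hypow : (x * y) ^ (orderOf x * b') = y := by
    rw [pow_mul, hcomm.mul_pow, pow_orderOf_eq_one, one_mul, hb']
  have hzp : (orderOf (x * y)).Coprime p := by
    rw [hord]
    exact Nat.Coprime.mul_left hxp hyp
  have hzc : x * y ∉ Subgroup.center G := by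
    intro h
    apply hxc
    rw [← hxpow]
    exact Subgroup.pow_mem _ h _
  have hle : Subgroup.centralizer ({x * y} : Set G) ≤ Subgroup.centralizer ({x} : Set G) := by
    have h1 := cent_le_of_pow (x * y) (orderOf y * b)
    rw [hxpow] at h1
    exact h1
  have heq : Subgroup.centralizer ({x * y} : Set G) = Subgroup.centralizer ({x} : Set G) :=
    Subgroup.eq_of_le_of_card_ge hle (card_cent_eq m _ _ (hidx x hxp hxc) (hidx _ hzp hzc)).le
  rw [← heq]
  have h1 := cent_le_of_pow (x * y) (orderOf x * b')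
  rw [hypow] at h1
  exact h1

/-- a noncentral `t`-element in every `C(x)` -/
theorem exists_nc_elt (p m : ℕ) (hp : p.Prime)
    (hidx : ∀ x : G, (orderOf x).Coprime p → x ∉ Subgroup.center G →
      (Subgroup.centralizer ({x} : Set G)).index = m)
    (x : G) (hxp : (orderOf x).Coprime p) (hxc : x ∉ Subgroup.center G)
    (t : ℕ) (ht : t.Prime) (htp : t ≠ p) (hNC : NC G t) :
    ∃ y ∈ Subgroup.centralizer ({x} : Set G), y ∉ Subgroup.center G ∧
      ∃ j : ℕ, orderOf y = t ^ j := by
  by_contra hcon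
  have hall : ∀ y ∈ Subgroup.centralizer ({x} : Set G), (∃ j : ℕ, orderOf y = t ^ j) →
      y ∈ Subgroup.center G := by
    intro y hy hj
    by_contra hyc
    exact hcon ⟨y, hy, hyc, hj⟩
  obtain ⟨y0, hy0c, j0, hy0⟩ := hNC
  have hfact : Fact t.Prime := ⟨ht⟩
  have hy0p : (orderOf y0).Coprime p := by
    rw [hy0]
    exact Nat.Coprime.pow_left _ ((Nat.coprime_primes ht hp).mpr htp)
  obtain ⟨P⟩ : Nonempty (Sylow t ↥(Subgroup.centralizer ({x} : Set G))) := inferInstance
  have hTxcard : Nat.card ↥((P : Subgroup ↥(Subgroup.centralizer ({x} : Set G))).map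
      (Subgroup.centralizer ({x} : Set G)).subtype) =
      t ^ (Nat.card ↥(Subgroup.centralizer ({x} : Set G))).factorization t := by
    rw [Subgroup.card_map_of_injective (Subgroup.subtype_injective _)]
    exact P.card_eq_multiplicity
  have hTxp : IsPGroup t ↥((P : Subgroup ↥(Subgroup.centralizer ({x} : Set G))).map
      (Subgroup.centralizer ({x} : Set G)).subtype) := P.isPGroup'.map _
  have hTxZ : (P : Subgroup ↥(Subgroup.centralizer ({x} : Set G))).map
      (Subgroup.centralizer ({x} : Set G)).subtype ≤ Subgroup.center G := by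
    rintro _ ⟨g, hg, rfl⟩
    apply hall _ g.2
    obtain ⟨k, hk⟩ := P.isPGroup' ⟨g, hg⟩
    have h1 : ((g : ↥(Subgroup.centralizer ({x} : Set G))) : G) ^ (t ^ k) = 1 := by
      have h2 := congrArg (fun z : ↥(P : Subgroup ↥(Subgroup.centralizer ({x} : Set G))) =>
        ((z : ↥(Subgroup.centralizer ({x} : Set G))) : G)) hk
      simpa using h2
    obtain ⟨j, -, hj⟩ := (Nat.dvd_prime_pow ht).mp (orderOf_dvd_of_pow_eq_one h1)
    exact ⟨j, hj⟩
  generalize (P : Subgroup ↥(Subgroup.centralizer ({x} : Set G))).map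
      (Subgroup.centralizer ({x} : Set G)).subtype = Tx at hTxcard hTxp hTxZ
  have hTxN : Tx.Normal := ⟨fun n hn g => by
    have h1 := hTxZ hn
    rw [Subgroup.mem_center_iff] at h1
    have e : g * n * g⁻¹ = n := by rw [h1 g, mul_inv_cancel_right]
    rw [e]
    exact hn⟩
  have hzp : IsPGroup t ↥(Subgroup.zpowers y0) := by
    apply IsPGroup.of_card (n := j0)
    rw [Nat.card_zpowers, hy0]
  have hDp : IsPGroup t ↥(Subgroup.zpowers y0 ⊔ Tx) := IsPGroup.to_sup_of_normal_right hzp hTxp
  obtain ⟨e, he⟩ := IsPGroup.iff_card.mp hDp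
  have hlt : Nat.card ↥Tx < Nat.card ↥(Subgroup.zpowers y0 ⊔ Tx) := by
    by_contra hle
    rw [not_lt] at hle
    have heq : Tx = Subgroup.zpowers y0 ⊔ Tx := Subgroup.eq_of_le_of_card_ge le_sup_right hle
    apply hy0c
    apply hTxZ
    rw [heq]
    exact Subgroup.mem_sup_left (Subgroup.mem_zpowers y0)
  have hDle : Subgroup.zpowers y0 ⊔ Tx ≤ Subgroup.centralizer ({y0} : Set G) := by
    apply sup_le
    · rw [Subgroup.zpowers_le, mem_cent]
    · intro g hg
      rw [mem_cent]
      have h1 := hTxZ hg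
      rw [Subgroup.mem_center_iff] at h1
      exact h1 y0
  have hdvd : Nat.card ↥(Subgroup.zpowers y0 ⊔ Tx) ∣
      Nat.card ↥(Subgroup.centralizer ({y0} : Set G)) := Subgroup.card_dvd_of_le hDle
  rw [card_cent_eq m y0 x (hidx y0 hy0p hy0c) (hidx x hxp hxc), he] at hdvd
  rw [hTxcard, he] at hlt
  have hv : (Nat.card ↥(Subgroup.centralizer ({x} : Set G))).factorization t < e :=
    (Nat.pow_lt_pow_iff_right ht.one_lt).mp hlt
  have hne : Nat.card ↥(Subgroup.centralizer ({x} : Set G)) ≠ 0 := Nat.card_pos.ne'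
  exact Nat.pow_succ_factorization_not_dvd hne ht
    (dvd_trans (pow_dvd_pow t (Nat.succ_le_of_lt hv)) hdvd)

end

theorem pkgTA (hPrim : PkgPrim.{u}) : PkgTA.{u} := by
  intro G _ _ p m hp hidx hTwo u hup huc
  have key : ∀ (x : G) (r k : ℕ), r.Prime → orderOf x = r ^ k → (orderOf x).Coprime p →
      x ∉ Subgroup.center G → ∀ y ∈ Subgroup.centralizer ({x} : Set G), (orderOf y).Coprime p →
      ∀ c ∈ Subgroup.centralizer ({x} : Set G), y * c = c * y := by
    intro x r k hr hxo hxp hxc
    obtain ⟨s, t, hs, ht, hst, hsp, htp, hNs, hNt⟩ := hTwo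
    obtain ⟨t', ht', ht'p, hNt', ht'r⟩ : ∃ t' : ℕ, t'.Prime ∧ t' ≠ p ∧ NC G t' ∧ t' ≠ r := by
      by_cases h : s = r
      · exact ⟨t, ht, htp, hNt, fun h' => hst (h.trans h'.symm)⟩
      · exact ⟨s, hs, hsp, hNs, h⟩
    obtain ⟨y0, hy0, hy0c, j0, hy0o⟩ := exists_nc_elt p m hp hidx x hxp hxc t' ht' ht'p hNt'
    have hy0p : (orderOf y0).Coprime p := by
      rw [hy0o]
      exact Nat.Coprime.pow_left _ ((Nat.coprime_primes ht' hp).mpr ht'p)
    have hxy0 : x * y0 = y0 * x := mem_cent.mp hy0
    have hco : (orderOf x).Coprime (orderOf y0) := by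
      rw [hxo, hy0o]
      exact Nat.Coprime.pow _ _ ((Nat.coprime_primes hr ht').mpr (Ne.symm ht'r))
    have hC1 := lemL p m hidx x y0 hxp hxc hy0p hxy0 hco
    have hC2 := lemL p m hidx y0 x hy0p hy0c hxp hxy0.symm hco.symm
    have hCeq : Subgroup.centralizer ({x} : Set G) = Subgroup.centralizer ({y0} : Set G) :=
      le_antisymm hC1 hC2
    have hpp : ∀ (z : G) (q j : ℕ), q.Prime → orderOf z = q ^ j → (orderOf z).Coprime p →
        z ∈ Subgroup.centralizer ({x} : Set G) →
        Subgroup.centralizer ({x} : Set G) ≤ Subgroup.centralizer ({z} : Set G) := by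
      intro z q j hq hzo hzp hz
      by_cases hqr : q = r
      · have hz' : z ∈ Subgroup.centralizer ({y0} : Set G) := hCeq ▸ hz
        rw [hCeq]
        apply lemL p m hidx y0 z hy0p hy0c hzp (mem_cent.mp hz')
        rw [hy0o, hzo]
        exact Nat.Coprime.pow _ _ ((Nat.coprime_primes ht' hq).mpr (by rw [hqr]; exact ht'r))
      · apply lemL p m hidx x z hxp hxc hzp (mem_cent.mp hz)
        rw [hxo, hzo]
        exact Nat.Coprime.pow _ _ ((Nat.coprime_primes hr hq).mpr (Ne.symm hqr))
    intro y hy hyp c hc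
    have hyH : y ∈ Subgroup.centralizer ({x} : Set G) ⊓
        Subgroup.centralizer ((Subgroup.centralizer ({x} : Set G) : Subgroup G) : Set G) := by
      apply hPrim G _ y (isOfFinOrder_of_finite y)
      intro q j hq hk
      obtain ⟨k', hk'⟩ := hk
      have hyj : y ^ j ∈ Subgroup.centralizer ({x} : Set G) := Subgroup.pow_mem _ hy j
      have hyjp : (orderOf (y ^ j)).Coprime p :=
        Nat.Coprime.coprime_dvd_left (orderOf_pow_dvd j) hyp
      refine ⟨hyj, Subgroup.mem_centralizer_iff.mpr ?_⟩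
      intro c' hc'
      have h1 := hpp (y ^ j) q k' hq hk' hyjp hyj hc'
      exact (mem_cent.mp h1).symm
    have h2 : y ∈ Subgroup.centralizer
        ((Subgroup.centralizer ({x} : Set G) : Subgroup G) : Set G) := hyH.2
    exact ((Subgroup.mem_centralizer_iff.mp h2) c hc).symm
  have hex : ∃ (r j : ℕ), r.Prime ∧ (∃ k, orderOf (u ^ j) = r ^ k) ∧
      u ^ j ∉ Subgroup.center G := by
    by_contra hcon
    apply huc
    apply hPrim G (Subgroup.center G) u (isOfFinOrder_of_finite u)
    intro r j hr hk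
    by_contra h
    exact hcon ⟨r, j, hr, hk, h⟩
  obtain ⟨r, j, hr, ⟨k, hk⟩, hjc⟩ := hex
  have hjp : (orderOf (u ^ j)).Coprime p :=
    Nat.Coprime.coprime_dvd_left (orderOf_pow_dvd j) hup
  have hle : Subgroup.centralizer ({u} : Set G) ≤ Subgroup.centralizer ({u ^ j} : Set G) :=
    cent_le_of_pow u j
  have heq : Subgroup.centralizer ({u} : Set G) = Subgroup.centralizer ({u ^ j} : Set G) :=
    Subgroup.eq_of_le_of_card_ge hle (card_cent_eq m _ _ (hidx _ hjp hjc) (hidx u hup huc)).le
  intro y hy hyp c hc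
  rw [heq] at hy hc
  exact key (u ^ j) r k hr hk hjp hjc y hy hyp c hc

end Cfsg.Agent.Lib.Helper1.S4033
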